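import Mathlib
import Cfsg.Prelude.Def_OddOrderLocal
import Cfsg.Prelude.Def_LieExceptional
import Cfsg.Agent.Lib.Frobenius.CN.Local
import Cfsg.Agent.Lib.PSolvable.FrattiniFacts
import Cfsg.Agent.Lib.Cores.PCore

/-!
Groups in which all centralizers of elements are TI subsets: centralizers are nilpotent.
-/

set_option autoImplicit false
set_option linter.all false

namespace CfsgLib.MetacyclicP.CTI

open Cfsg

universe u

variable {G : Type u} [Group G]

/-- All centralisers of elements are TI subsets. -/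
def IsCTI (G : Type u) [Group G] : Prop :=
  ∀ x : G, Cfsg.IsTISubset (Subgroup.centralizer ({x} : Set G) : Set G)

theorem mem_cent {a b : G} : b ∈ Subgroup.centralizer ({a} : Set G) ↔ b * a = a * b :=
  Subgroup.mem_centralizer_singleton_iff

/-- If `y ≠ 1` and `g y g⁻¹` both lie in a centraliser, `g` normalises it. -/
theorem IsCTI.mem_normalizer (h : IsCTI G) {x g y : G} (hy : y ∈ Subgroup.centralizer ({x} : Set G))
    (hy1 : y ≠ 1) (hg : g * y * g⁻¹ ∈ Subgroup.centralizer ({x} : Set G)) :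
    g ∈ Subgroup.normalizer (Subgroup.centralizer ({x} : Set G) : Set G) := by
  by_contra hn
  exact hy1 (h x g hn y hy hg)

/-- A finite group in which every centraliser of an element is normal is nilpotent. -/
theorem isNilpotent_of_centralizer_normal [Finite G]
    (h : ∀ x g c : G, c * x = x * c → (g * c * g⁻¹) * x = x * (g * c * g⁻¹)) :
    Group.IsNilpotent G := by
  refine ((Group.isNilpotent_of_finite_tfae (G := G)).out 3 0).1 ?_
  intro p hp P
  refine ⟨fun x hx g => ?_⟩
  set W := Subgroup.normalClosure ({x} : Set G) with hW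
  haveI : W.Normal := Subgroup.normalClosure_normal
  have hconj : ∀ a b : G, a ∈ Group.conjugatesOfSet ({x} : Set G) →
      b ∈ Group.conjugatesOfSet ({x} : Set G) → a * b = b * a := by
    intro a b ha hb
    obtain ⟨a', ha', haa⟩ := Group.mem_conjugatesOfSet_iff.1 ha
    obtain ⟨b', hb', hbb⟩ := Group.mem_conjugatesOfSet_iff.1 hb
    rw [Set.mem_singleton_iff] at ha' hb'
    subst ha' hb'
    obtain ⟨u, hu⟩ := isConj_iff.1 haa
    obtain ⟨v, hv⟩ := isConj_iff.1 hbb
    have h1 := h b (u * v⁻¹) b rfl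
    have : u * v⁻¹ * b * (u * v⁻¹)⁻¹ = a := by rw [← hv, ← hu]; group
    rwa [this] at h1
  obtain ⟨k, hk⟩ := P.2 ⟨x, hx⟩
  have hxk : x ^ p ^ k = 1 := congrArg Subtype.val hk
  have hcomm : ∀ a ∈ W, ∀ b ∈ W, a * b = b * a := by
    have hle : W ≤ Subgroup.centralizer (Group.conjugatesOfSet ({x} : Set G)) :=
      (Subgroup.closure_le _).2 fun a ha => Subgroup.mem_centralizer_iff.2 fun b hb => hconj b a hb ha
    intro a ha b hb
    have h2 : W ≤ Subgroup.centralizer (W : Set G) := by
      refine (Subgroup.closure_le _).2 fun c hc => Subgroup.mem_centralizer_iff.2 fun d hd => ?_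
      exact ((Subgroup.mem_centralizer_iff.1 (hle hd)) c hc).symm
    exact Subgroup.mem_centralizer_iff.1 (h2 hb) a ha
  have hpow : ∀ a ∈ W, a ^ p ^ k = 1 := by
    intro a ha
    induction ha using Subgroup.closure_induction with
    | mem a ha =>
      obtain ⟨a', ha', haa⟩ := Group.mem_conjugatesOfSet_iff.1 ha
      rw [Set.mem_singleton_iff] at ha'
      subst ha'
      obtain ⟨u, hu⟩ := isConj_iff.1 haa
      rw [← hu, conj_pow, hxk, mul_one, mul_inv_cancel]
    | one => exact one_pow _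
    | mul a b ha hb iha ihb => rw [Commute.mul_pow (hcomm a ha b hb), iha, ihb, mul_one]
    | inv a ha iha => rw [inv_pow, iha, inv_one]
  have hWp : IsPGroup p W := fun a => ⟨k, Subtype.ext (hpow a a.2)⟩
  have hWP : W ≤ (P : Subgroup G) := by
    obtain ⟨Q, hQ⟩ := hWp.exists_le_sylow
    obtain ⟨c, rfl⟩ := MulAction.exists_smul_eq G P Q
    intro a ha
    have h1 : c * a * c⁻¹ ∈ W := ‹W.Normal›.conj_mem a ha c
    have h2 := hQ h1
    rw [Sylow.coe_subgroup_smul, Subgroup.mem_pointwise_smul_iff_inv_smul_mem] at h2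
    simpa [mul_assoc] using h2
  exact hWP (‹W.Normal›.conj_mem x (Subgroup.subset_normalClosure rfl) g)

/-- Centralisers in a CTI group are nilpotent. -/
theorem IsCTI.isCN [Finite G] (h : IsCTI G) : Cfsg.IsCNGroup G := by
  intro a ha
  refine isNilpotent_of_centralizer_normal fun x g c hc => ?_
  have hax : a ∈ Subgroup.centralizer ({(x : G)} : Set G) := mem_cent.2 (mem_cent.1 x.2).symm
  have hg : (g : G) * a * (g : G)⁻¹ = a := by rw [mem_cent.1 g.2, mul_inv_cancel_right]
  have hn := h.mem_normalizer hax ha (by rw [hg]; exact hax)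
  have h1 := (Subgroup.mem_normalizer_iff.1 hn (c : G)).1 (mem_cent.2 (congrArg Subtype.val hc))
  exact Subtype.ext (mem_cent.1 h1)

/-- A nontrivial centre forces nilpotency. -/
theorem IsCTI.isNilpotent_of_center_ne_bot [Finite G] (h : IsCTI G)
    (hz : Subgroup.center G ≠ ⊥) : Group.IsNilpotent G := by
  obtain ⟨z, hz, hz1⟩ := (Subgroup.bot_or_exists_ne_one _).resolve_left hz
  refine isNilpotent_of_centralizer_normal fun x g c hc => ?_
  have hzx : z ∈ Subgroup.centralizer ({x} : Set G) :=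
    mem_cent.2 (Subgroup.mem_center_iff.1 hz x).symm
  have hg : g * z * g⁻¹ = z := by rw [Subgroup.mem_center_iff.1 hz g, mul_inv_cancel_right]
  have hn := h.mem_normalizer hzx hz1 (by rw [hg]; exact hzx)
  exact mem_cent.1 ((Subgroup.mem_normalizer_iff.1 hn c).1 (mem_cent.2 hc))

/-- There is no three-step CTI group. -/
theorem IsCTI.not_threeStep [Finite G] (h : IsCTI G) (p : ℕ) (hp : p.Prime) :
    ¬ Cfsg.IsThreeStepGroup p G := by
  haveI : Fact p.Prime := ⟨hp⟩
  rintro ⟨hP, A, -, -, -, -, -, htop, ⟨n, hn⟩, -⟩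
  set P := Cfsg.pCore p G with hPdef
  haveI : P.Normal := Cfsg.pCore_normal p G
  have hPp : IsPGroup p P := CfsgLib.Cores.isPGroup_pCore p G
  obtain ⟨S, hS⟩ := hPp.exists_le_sylow
  haveI hSne : Nontrivial (P.subgroupOf (S : Subgroup G)) := by
    rw [Subgroup.nontrivial_iff_ne_bot, Ne, Subgroup.subgroupOf_eq_bot, disjoint_iff,
      inf_eq_left.2 hS]
    exact hP
  haveI : (P.subgroupOf (S : Subgroup G)).Normal := inferInstance
  have hne : P.subgroupOf (S : Subgroup G) ⊓ Subgroup.center (S : Subgroup G) ≠ ⊥ := by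
    haveI : Group.IsNilpotent (S : Subgroup G) := S.2.isNilpotent
    exact CfsgLib.PSolvable.inf_center_ne_bot ((Subgroup.nontrivial_iff_ne_bot _).1 hSne)
  obtain ⟨w, hw, hw1⟩ := (Subgroup.bot_or_exists_ne_one _).resolve_left hne
  have hwP : (w : G) ∈ P := Subgroup.mem_subgroupOf.1 (Subgroup.mem_inf.1 hw).1
  have hw1' : (w : G) ≠ 1 := fun e => hw1 (Subtype.ext e)
  have hSC : (S : Subgroup G) ≤ Subgroup.centralizer ({(w : G)} : Set G) := fun s hs =>
    mem_cent.2 (congrArg Subtype.val (Subgroup.mem_center_iff.1 (Subgroup.mem_inf.1 hw).2 ⟨s, hs⟩))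
  set C := Subgroup.centralizer ({(w : G)} : Set G) with hC
  haveI hCn : C.Normal := Subgroup.normalizer_eq_top_iff.1 ((Subgroup.eq_top_iff' _).2 fun g =>
    h.mem_normalizer (hSC (hS hwP)) hw1' (hSC (hS (‹P.Normal›.conj_mem _ hwP g))))
  haveI : Group.IsNilpotent C := h.isCN _ hw1'
  let SC : Sylow p C := S.subtype hSC
  have hSn : ((SC : Subgroup C)).Normal := (Group.isNilpotent_of_finite_tfae.out 0 3 rfl rfl).mp ‹Group.IsNilpotent C› p ⟨hp⟩ SC
  haveI := Sylow.characteristic_of_normal SC hSn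
  have hSnG : ((SC : Subgroup C).map C.subtype).Normal := ConjAct.normal_of_characteristic_of_normal
  have heq : (SC : Subgroup C).map C.subtype = (S : Subgroup G) := by
    rw [Sylow.coe_subtype, Subgroup.map_subgroupOf_eq_of_le hSC]
  rw [heq] at hSnG
  have hSP : (S : Subgroup G) ≤ P := CfsgLib.Cores.le_pCore S.2
  have hle : (S : Subgroup G) ≤ P ⊔ A := hSP.trans le_sup_left
  have hpn : p ∣ (P ⊔ A).index := by
    rw [hn]
    refine dvd_pow_self p ?_
    rintro rfl
    exact htop (Subgroup.index_eq_one.1 (by rw [hn, pow_zero]))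
  exact S.not_dvd_index (hpn.trans (Subgroup.index_dvd_of_le hle))

/-- A generalised quaternion subgroup of a CTI group has order at most eight. -/
theorem IsCTI.quaternion_le_one (h : IsCTI G) {Q : Subgroup G} {n : ℕ}
    (e : Q ≃* QuaternionGroup (2 ^ n)) : n ≤ 1 := by
  by_contra hn
  push Not at hn
  haveI : NeZero (2 ^ n) := ⟨by positivity⟩
  set k := 2 ^ n with hk
  have hk4 : 4 ≤ k := le_trans (by norm_num) (Nat.pow_le_pow_right two_pos hn)
  let f : QuaternionGroup k →* G := Q.subtype.comp e.symm.toMonoidHom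
  have hf : Function.Injective f := Q.subtype_injective.comp e.symm.injective
  set y := f (QuaternionGroup.xa 0) with hy
  set t := f (QuaternionGroup.a (k : ZMod (2 * k))) with ht
  set g := f (QuaternionGroup.a 1) with hg
  have h2k : ((k : ZMod (2 * k)) + k) = 0 := by
    rw [← Nat.cast_add, ← two_mul, ZMod.natCast_self]
  have hneg : -(k : ZMod (2 * k)) = k := neg_eq_of_add_eq_zero_left h2k
  have hty : t ∈ Subgroup.centralizer ({y} : Set G) := by
    rw [mem_cent, ht, hy, ← map_mul, ← map_mul, QuaternionGroup.a_mul_xa, QuaternionGroup.xa_mul_a,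
      zero_sub, hneg, zero_add]
  have ht1 : t ≠ 1 := by
    rw [ht, ← map_one f, Ne, hf.eq_iff, QuaternionGroup.one_def, QuaternionGroup.a.injEq,
      ZMod.natCast_eq_zero_iff]
    intro hd
    have := Nat.le_of_dvd (by omega) hd
    omega
  have hgt : g * t * g⁻¹ = t := by
    rw [mul_inv_eq_iff_eq_mul, ht, hg, ← map_mul, ← map_mul, QuaternionGroup.a_mul_a,
      QuaternionGroup.a_mul_a, add_comm]
  have hn' := h.mem_normalizer hty ht1 (by rw [hgt]; exact hty)
  have h1 := mem_cent.1 ((Subgroup.mem_normalizer_iff.1 hn' y).1 (mem_cent.2 rfl))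
  have hw : g * y * g⁻¹ = f (QuaternionGroup.xa (-2)) := by
    rw [mul_inv_eq_iff_eq_mul, hy, hg, ← map_mul, ← map_mul, QuaternionGroup.a_mul_xa,
      QuaternionGroup.xa_mul_a]
    congr 2
    ring
  rw [hw, hy, ← map_mul, ← map_mul, hf.eq_iff, QuaternionGroup.xa_mul_xa, QuaternionGroup.xa_mul_xa,
    QuaternionGroup.a.injEq] at h1
  have h4 : ((4 : ℕ) : ZMod (2 * k)) = 0 := by
    push_cast
    linear_combination h1
  rw [ZMod.natCast_eq_zero_iff] at h4
  have := Nat.le_of_dvd (by omega) h4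
  omega

end CfsgLib.MetacyclicP.CTI
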